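import Cfsg.Agent.H390.RC.Reps
import Cfsg.Agent.S2119

/-!
# S3510, EXC: `T = A₅`, `A₈` (helper390)
-/

set_option autoImplicit false

namespace Cfsg.Agent.H390.RC

open Equiv Equiv.Perm

/-- the embedding of `G` in `Sₙ` -/
theorem exists_psi {G : Type*} [Group G] (K : Subgroup G) [K.Normal]
    (hCK : Subgroup.centralizer (K : Set G) = ⊥) {n : ℕ} (hn : 4 ≤ n) (h6 : n ≠ 6)
    (e : K ≃* alternatingGroup (Fin n)) :
    ∃ ψ : G →* Perm (Fin n), Function.Injective ψ ∧ ∀ k : K, ψ k = (e k : Perm (Fin n)) := by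
  set a : Perm (Fin n) ≃* MulAut (alternatingGroup (Fin n)) :=
    MulEquiv.ofBijective MulAut.conjNormal (Cfsg.Agent.S2119.result n hn h6) with ha
  set ψ : G →* Perm (Fin n) :=
    (a.symm.toMonoidHom.comp (MulAut.congr e).toMonoidHom).comp (MulAut.conjNormal : G →* MulAut K) with hψ
  have h1 : ∀ (g : G), a (ψ g) = MulAut.congr e (MulAut.conjNormal g) := fun g => a.apply_symm_apply _
  refine ⟨ψ, ?_, ?_⟩
  · rw [injective_iff_map_eq_one]
    intro g hg
    have h3 := h1 g
    rw [hg, map_one] at h3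
    have h4 : (MulAut.conjNormal g : MulAut K) = 1 := (MulAut.congr e).injective (by rw [← h3, map_one])
    have h5 : g ∈ Subgroup.centralizer (K : Set G) := by
      rw [Subgroup.mem_centralizer_iff]
      intro k hk
      have h6 := MulAut.conjNormal_apply (H := K) g ⟨k, hk⟩
      rw [h4, MulAut.one_apply] at h6
      change k = g * k * g⁻¹ at h6
      nth_rewrite 1 [h6]
      rw [inv_mul_cancel_right]
    rw [hCK, Subgroup.mem_bot] at h5
    exact h5
  · intro k
    apply a.injective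
    rw [h1]
    apply MulEquiv.ext
    intro x
    rw [MulAut.conjNormal_val]
    apply Subtype.ext
    have h3 : (MulAut.congr e) (MulAut.conj k) x = e (MulAut.conj k (e.symm x)) := rfl
    rw [h3, MulAut.conj_apply, map_mul, map_mul, map_inv, e.apply_symm_apply]
    exact (MulAut.conjNormal_apply (H := alternatingGroup (Fin n)) (e k : Perm (Fin n)) x).symm

/-- an element of prime order of `⟨g⟩` in a nontrivial subgroup -/
theorem exists_prime_pow {G : Type*} [Group G] [Finite G] {Ω : Type*} [MulAction G Ω] {g : G} {ω : Ω}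
    (hg : MulAction.stabilizer (Subgroup.zpowers g) ω ≠ ⊥) :
    ∃ r : ℕ, r.Prime ∧ r ∣ orderOf g ∧ g ^ (orderOf g / r) • ω = ω := by
  obtain ⟨⟨⟨z, hz⟩, hzω⟩, ha1⟩ := Subgroup.ne_bot_iff_exists_ne_one.1 hg
  have hz1 : z ≠ 1 := by
    intro h
    apply ha1
    apply Subtype.ext
    exact Subtype.ext h
  have hzS : z ∈ MulAction.stabilizer G ω := hzω
  rw [← mem_powers_iff_mem_zpowers] at hz
  obtain ⟨k, rfl⟩ := hz
  change g ^ k ≠ 1 at hz1
  change g ^ k ∈ _ at hzS
  set n := orderOf g with hn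
  have hpos : 0 < n := orderOf_pos g
  set d := Nat.gcd k n with hd
  have hdn : d ∣ n := Nat.gcd_dvd_right _ _
  have hdpos : 0 < d := Nat.pos_of_dvd_of_pos hdn hpos
  have hdne : n / d ≠ 1 := by
    intro h
    have h1 : n = d := by
      have h2 := Nat.div_mul_cancel hdn
      rw [h, one_mul] at h2
      exact h2.symm
    apply hz1
    rw [← orderOf_dvd_iff_pow_eq_one, ← hn, h1]
    exact Nat.gcd_dvd_left _ _
  have hgd : g ^ d ∈ MulAction.stabilizer G ω := by
    have h1 : g ^ d = (g ^ k) ^ (Nat.gcdA k n) := by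
      have h2 : g ^ (n : ℤ) = 1 := by rw [zpow_natCast, hn, pow_orderOf_eq_one]
      rw [← zpow_natCast, hd, Nat.gcd_eq_gcd_ab, zpow_add, zpow_mul, zpow_mul, h2, one_zpow, mul_one, zpow_natCast]
    rw [h1]
    exact Subgroup.zpow_mem _ hzS _
  obtain ⟨r, hr, hrd⟩ := Nat.exists_prime_and_dvd hdne
  refine ⟨r, hr, hrd.trans (Nat.div_dvd_of_dvd hdn), ?_⟩
  have h1 : n / r = d * (n / d / r) := by
    obtain ⟨m, hm⟩ := hrd
    have h2 := Nat.div_mul_cancel hdn
    rw [hm] at h2 ⊢
    rw [Nat.mul_div_cancel_left _ hr.pos, ← h2, mul_assoc, Nat.mul_div_cancel_left _ hr.pos, mul_comm]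
  rw [h1, pow_mul]
  exact Subgroup.pow_mem _ hgd _

/-- an element without regular points whose order is a prime power is impossible -/
theorem exists_two_primes {G : Type*} [Group G] [Finite G] {Ω : Type*} [Nonempty Ω] [MulAction G Ω] [FaithfulSMul G Ω]
    (g : G) (hg : ∀ ω : Ω, MulAction.stabilizer (Subgroup.zpowers g) ω ≠ ⊥) :
    ∃ r₁ r₂ : ℕ, r₁.Prime ∧ r₂.Prime ∧ r₁ < r₂ ∧ r₁ ∣ orderOf g ∧ r₂ ∣ orderOf g := by
  have hpos : 0 < orderOf g := orderOf_pos g
  obtain ⟨r, hr, hd, -⟩ := exists_prime_pow (hg (Classical.arbitrary Ω))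
  have hne : g ^ (orderOf g / r) ≠ 1 := by
    intro h
    have h1 := Nat.le_of_dvd (Nat.div_pos (Nat.le_of_dvd hpos hd) hr.pos) (orderOf_dvd_of_pow_eq_one h)
    exact absurd h1 (not_le.2 (Nat.div_lt_self hpos hr.one_lt))
  obtain ⟨ω, hω⟩ : ∃ ω : Ω, g ^ (orderOf g / r) • ω ≠ ω := by
    by_contra hc
    push Not at hc
    apply hne
    apply eq_of_smul_eq_smul (α := Ω)
    intro ω
    rw [hc ω, one_smul]
  obtain ⟨r', hr', hd', hω'⟩ := exists_prime_pow (hg ω)
  have hrr : r ≠ r' := by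
    rintro rfl
    exact hω hω'
  rcases lt_or_gt_of_ne hrr with h | h
  · exact ⟨r, r', hr, hr', h, hd, hd'⟩
  · exact ⟨r', r, hr', hr, h, hd', hd⟩

theorem index_stab {n : ℕ} (hn : 3 ≤ n) (i : Fin n) :
    (MulAction.stabilizer (alternatingGroup (Fin n)) i).index = n := by
  have := alternatingGroup.isPretransitive_of_three_le_card (Fin n) (by simpa using hn)
  rw [MulAction.index_stabilizer_of_transitive, Nat.card_eq_fintype_card, Fintype.card_fin]

theorem card_dvd_of {G : Type*} [Group G] [Finite G] {Ω : Type*} [Fintype Ω] [MulAction G Ω] [FaithfulSMul G Ω]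
    (T : Subgroup G) [T.Normal] {n : ℕ} (hn : 5 ≤ n) (h6 : n ≠ 6) (e : T ≃* alternatingGroup (Fin n))
    (hC : Subgroup.centralizer (T : Set G) = ⊥) (hprim : MulAction.IsPreprimitive G Ω) (g : G)
    (hg : ∀ ω : Ω, MulAction.stabilizer (Subgroup.zpowers g) ω ≠ ⊥)
    (hgood : ∀ (M : Subgroup (Perm (Fin n))) (g : Perm (Fin n)), CovG M g → ∀ r₁ r₂ : ℕ, r₁.Prime → r₂.Prime →
      r₁ < r₂ → r₁ ∣ orderOf g → r₂ ∣ orderOf g → Good M) : Fintype.card Ω ∣ n := by
  obtain ⟨ψ, hinj, hψ⟩ := exists_psi T hC (by omega) h6 e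
  have hA : Nontrivial (alternatingGroup (Fin n)) := by
    have : Nontrivial (Fin n) := Fin.nontrivial_iff_two_le.2 (by omega)
    exact alternatingGroup.nontrivial_of_three_le_card (by simpa using (by omega : 3 ≤ n))
  have hT : Nontrivial T := e.toEquiv.nontrivial
  obtain ⟨t0, ht0⟩ := exists_ne (1 : T)
  have hex : ∃ ω : Ω, (t0 : G) • ω ≠ ω := by
    by_contra hno
    push Not at hno
    apply ht0
    apply Subtype.ext
    apply eq_of_smul_eq_smul (α := Ω)
    intro ω
    rw [hno ω]; simp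
  obtain ⟨ω0, hω0⟩ := hex
  have hne : Nonempty Ω := ⟨ω0⟩
  obtain ⟨r₁, r₂, hr₁, hr₂, hlt, hd₁, hd₂⟩ := exists_two_primes g hg
  have ho : orderOf (ψ g) = orderOf g := orderOf_injective ψ hinj g
  have hcov : CovG ((MulAction.stabilizer G ω0).map ψ) (ψ g) := by
    intro a ha
    set k : T := e.symm ⟨a, mem_alternatingGroup.2 ha⟩ with hk
    have hka : ψ k = a := by
      rw [hψ, hk, e.apply_symm_apply]
    obtain ⟨r, hr, hd, hω⟩ := exists_prime_pow (hg ((k : G)⁻¹ • ω0))
    refine ⟨r, hr, by rwa [ho], (k : G) * g ^ (orderOf g / r) * (k : G)⁻¹, ?_, ?_⟩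
    · change ((k : G) * g ^ (orderOf g / r) * (k : G)⁻¹) • ω0 = ω0
      rw [mul_smul, mul_smul, hω, smul_inv_smul]
    · rw [map_mul, map_mul, map_inv, map_pow, hka, ho]
  obtain ⟨i, hi⟩ := hgood _ _ hcov r₁ r₂ hr₁ hr₂ hlt (by rwa [ho]) (by rwa [ho])
  have hle : (MulAction.stabilizer (alternatingGroup (Fin n)) i).comap e.toMonoidHom ≤ MulAction.stabilizer T ω0 := by
    intro k hk
    have hk' : (e k : Perm (Fin n)) i = i := hk
    obtain ⟨y, hy, hyk⟩ := hi (e k) (mem_alternatingGroup.1 (e k).2) hk'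
    rw [← hψ] at hyk
    have h1 := hinj hyk
    have h2 : y • ω0 = ω0 := hy
    rw [h1] at h2
    exact h2
  have hquasi : MulAction.IsQuasiPreprimitive G Ω := inferInstance
  have htr : MulAction.IsPretransitive T Ω := by
    apply MulAction.IsQuasiPreprimitive.isPretransitive_of_normal
    intro h
    have h1 : ω0 ∈ MulAction.fixedPoints T Ω := by
      rw [h]
      trivial
    exact hω0 (h1 t0)
  have h1 := Subgroup.index_dvd_of_le hle
  rw [MulAction.index_stabilizer_of_transitive, Subgroup.index_comap_of_surjective _ e.surjective,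
    index_stab (by omega), Nat.card_eq_fintype_card] at h1
  exact h1

theorem card_alt_eight : Nat.card (alternatingGroup (Fin 8)) = 20160 := by
  rw [nat_card_alternatingGroup, Nat.card_eq_fintype_card, Fintype.card_fin]
  rfl

/-- **`T = A₈`** -/
theorem exc_eight {G : Type*} [Group G] [Finite G] {Ω : Type*} [Fintype Ω] [MulAction G Ω] [FaithfulSMul G Ω]
    (T : Subgroup G) [T.Normal] (e : T ≃* alternatingGroup (Fin 8))
    (hC : Subgroup.centralizer (T : Set G) = ⊥) (hprim : MulAction.IsPreprimitive G Ω) (g : G)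
    (hg : ∀ ω : Ω, MulAction.stabilizer (Subgroup.zpowers g) ω ≠ ⊥) : Fintype.card Ω = 8 := by
  have h1 := card_dvd_of T (by norm_num) (by norm_num) e hC hprim g hg
    fun M g hc r₁ r₂ hr₁ hr₂ hlt hd₁ hd₂ => good_eight hc hr₁ hr₂ hlt hd₁ hd₂
  by_contra h8
  have h2 : Fintype.card Ω ≤ 4 := by
    have h3 := Nat.le_of_dvd (by norm_num) h1
    interval_cases h : Fintype.card Ω <;> revert h1 h8 <;> decide
  have h3 : Function.Injective (MulAction.toPermHom T Ω) := by
    intro a b hab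
    apply Subtype.ext
    apply eq_of_smul_eq_smul (α := Ω)
    intro ω
    exact DFunLike.congr_fun hab ω
  have h4 := Nat.card_le_card_of_injective _ h3
  rw [Nat.card_congr e.toEquiv, card_alt_eight, Nat.card_perm, Nat.card_eq_fintype_card] at h4
  have h5 := Nat.factorial_le h2
  have h6 : Nat.factorial 4 = 24 := rfl
  omega

/-- **`T = A₅`** -/
theorem exc_five {G : Type*} [Group G] [Finite G] {Ω : Type*} [Fintype Ω] [MulAction G Ω] [FaithfulSMul G Ω]
    (T : Subgroup G) [T.Normal] (e : T ≃* alternatingGroup (Fin 5))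
    (hC : Subgroup.centralizer (T : Set G) = ⊥) (hprim : MulAction.IsPreprimitive G Ω) (g : G)
    (hg : ∀ ω : Ω, MulAction.stabilizer (Subgroup.zpowers g) ω ≠ ⊥) : Fintype.card Ω = 5 := by
  have h1 := card_dvd_of T le_rfl (by norm_num) e hC hprim g hg
    fun M g hc r₁ r₂ hr₁ hr₂ hlt hd₁ hd₂ => good_five hc hr₁ hr₂ hlt hd₁ hd₂
  rcases (Nat.dvd_prime Nat.prime_five).1 h1 with h | h
  · exfalso
    have hs : Subsingleton Ω := Fintype.card_le_one_iff_subsingleton.1 h.le
    have hA : Nontrivial (alternatingGroup (Fin 5)) :=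
      alternatingGroup.nontrivial_of_three_le_card (by simp)
    have hT : Nontrivial T := e.toEquiv.nontrivial
    obtain ⟨t0, ht0⟩ := exists_ne (1 : T)
    apply ht0
    apply Subtype.ext
    apply eq_of_smul_eq_smul (α := Ω)
    intro ω
    exact Subsingleton.elim _ _
  · exact h

end Cfsg.Agent.H390.RC
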