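import Cfsg.Agent.H390.RC.Tri
import Cfsg.Agent.H390.RC.CyType

/-!
# S3510, EXC: elements of `S₅`, `S₈` whose order is not a prime power (helper390)
-/

set_option autoImplicit false
set_option maxRecDepth 100000

namespace Cfsg.Agent.H390.RC

open Equiv Equiv.Perm

section gen

variable {α : Type*} [DecidableEq α] [Fintype α]

/-- every even conjugate of `M` contains an element of prime order of `⟨g⟩` -/
def CovG (M : Subgroup (Perm α)) (g : Perm α) : Prop :=
  ∀ a : Perm α, sign a = 1 → ∃ r : ℕ, r.Prime ∧ r ∣ orderOf g ∧ a * g ^ (orderOf g / r) * a⁻¹ ∈ M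

variable {M : Subgroup (Perm α)} {g : Perm α}

theorem orderOf_cj (h g : Perm α) : orderOf (h * g * h⁻¹) = orderOf g :=
  (MulAut.conj h).orderOf_eq g

theorem CovG.conj (h : Perm α) (hc : CovG M g) : CovG (M.map (MulAut.conj h).toMonoidHom) (h * g * h⁻¹) := by
  intro a ha
  obtain ⟨r, hr, hd, hm⟩ := hc (h⁻¹ * a * h) (by
    rw [map_mul, map_mul, ha, mul_one, ← map_mul, inv_mul_cancel, map_one])
  refine ⟨r, hr, by rwa [orderOf_cj], ?_⟩
  rw [orderOf_cj, conj_pow]
  refine ⟨_, hm, ?_⟩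
  change h * _ * h⁻¹ = _
  group

theorem Good.of_map (h : Perm α) (hg : Good (M.map (MulAut.conj h).toMonoidHom)) : Good M := by
  obtain ⟨i, hi⟩ := hg
  refine ⟨h⁻¹ i, fun σ hσ hσi => ?_⟩
  obtain ⟨m, hm, hm'⟩ := hi (h * σ * h⁻¹) (by
    rw [map_mul, map_mul, hσ, mul_one, ← map_mul, mul_inv_cancel, map_one]) (by
    change h (σ (h⁻¹ i)) = i
    rw [hσi]
    exact h.apply_symm_apply i)
  have h1 : h * m * h⁻¹ = h * σ * h⁻¹ := hm'
  have h2 : m = σ := mul_left_cancel (mul_right_cancel h1)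
  rwa [← h2]

/-- reduction to a representative -/
theorem good_of_rep {g₀ : Perm α} (hc : CovG M g) (hs : g.cycleType = g₀.cycleType)
    (h : ∀ M' : Subgroup (Perm α), CovG M' g₀ → Good M') : Good M := by
  obtain ⟨c, hcc⟩ := isConj_iff.1 (isConj_iff_cycleType_eq.2 hs)
  have h1 := hc.conj c
  rw [hcc] at h1
  exact (h _ h1).of_map c

theorem CovG.cov2 {N r₁ r₂ : ℕ} {x y : Perm α} (hc : CovG M g) (hN : orderOf g = N)
    (hr : ∀ r : ℕ, r.Prime → r ∣ N → r = r₁ ∨ r = r₂) (hx : g ^ (N / r₁) = x) (hy : g ^ (N / r₂) = y) :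
    Cov2 M x y := by
  intro a ha
  obtain ⟨r, hrp, hd, hm⟩ := hc a ha
  rw [hN] at hd hm
  rcases hr r hrp hd with rfl | rfl
  · left
    rwa [← hx]
  · right
    rwa [← hy]

end gen

theorem prime_six {r : ℕ} (hr : r.Prime) (hd : r ∣ 6) : r = 2 ∨ r = 3 := by
  have h1 := Nat.le_of_dvd (by norm_num) hd
  interval_cases r <;> revert hr hd <;> decide

theorem prime_ten {r : ℕ} (hr : r.Prime) (hd : r ∣ 10) : r = 2 ∨ r = 5 := by
  have h1 := Nat.le_of_dvd (by norm_num) hd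
  interval_cases r <;> revert hr hd <;> decide

theorem prime_twelve {r : ℕ} (hr : r.Prime) (hd : r ∣ 12) : r = 2 ∨ r = 3 := by
  have h1 := Nat.le_of_dvd (by norm_num) hd
  interval_cases r <;> revert hr hd <;> decide

theorem prime_fifteen {r : ℕ} (hr : r.Prime) (hd : r ∣ 15) : r = 3 ∨ r = 5 := by
  have h1 := Nat.le_of_dvd (by norm_num) hd
  interval_cases r <;> revert hr hd <;> decide

section eight

variable {M : Subgroup (Perm (Fin 8))}

/-- `(3,2)` -/
theorem rep32 (h : CovG M (cy 0 1 2 * swap 3 4)) : Good M := by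
  have ho : orderOf (cy 0 1 2 * swap 3 4 : Perm (Fin 8)) = 6 := by
    rw [← lcm_cycleType, show (cy 0 1 2 * swap 3 4 : Perm (Fin 8)).cycleType = {3, 2} by decide +kernel]
    decide
  have h1 : Cov2 M (swap 3 4) (cy 0 2 1) := h.cov2 ho (fun r => prime_six) (by decide) (by decide)
  have h2 : Cov2 M (swap 3 4) (cy 0 1 2) := by
    intro a ha
    rcases h1 a ha with h | h
    · exact Or.inl h
    · right
      have h3 := M.inv_mem h
      have h4 : (a * cy 0 2 1 * a⁻¹)⁻¹ = a * (cy 0 2 1)⁻¹ * a⁻¹ := by group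
      rw [h4, show (cy (0 : Fin 8) 2 1)⁻¹ = cy 0 1 2 by decide] at h3
      exact h3
  exact good_swap_cy (by simp) (by decide) h2

/-- `(5,2)` -/
theorem rep52 (h : CovG M (swap 2 3 * swap 3 4 * swap 4 5 * swap 5 6 * swap 0 1)) : Good M := by
  have ho : orderOf (swap 2 3 * swap 3 4 * swap 4 5 * swap 5 6 * swap 0 1 : Perm (Fin 8)) = 10 := by
    rw [← lcm_cycleType,
      show (swap 2 3 * swap 3 4 * swap 4 5 * swap 5 6 * swap 0 1 : Perm (Fin 8)).cycleType = {5, 2} by decide +kernel]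
    decide
  have h1 : Cov2 M (swap 0 1) ((swap 2 3 * swap 3 4 * swap 4 5 * swap 5 6) ^ 2) :=
    h.cov2 ho (fun r => prime_ten) (by decide) (by decide)
  -- raise to a power
  have h2 : Cov2 M (swap 0 1) (swap 2 3 * swap 3 4 * swap 4 5 * swap 5 6) := by
    intro a ha
    rcases h1 a ha with h | h
    · exact Or.inl h
    · right
      have h3 := M.pow_mem h 3
      rw [conj_pow, ← pow_mul] at h3
      rwa [show (swap 2 3 * swap 3 4 * swap 4 5 * swap 5 6 : Perm (Fin 8)) ^ (2 * 3) =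
        swap 2 3 * swap 3 4 * swap 4 5 * swap 5 6 by decide] at h3
  have h3 : Cov2 M (cy 3 4 6) (swap 0 1) := h2.symm.mv2' (cy 4 5 6) (by decide) (by decide) (by decide)
  exact good_swap_cy (by simp) (by decide) h3.symm

/-- `(3,3,2)` -/
theorem rep323 (h : CovG M (cy 2 3 4 * cy 5 6 7 * swap 0 1)) : Good M := by
  have ho : orderOf (cy 2 3 4 * cy 5 6 7 * swap 0 1 : Perm (Fin 8)) = 6 := by
    rw [← lcm_cycleType,
      show (cy 2 3 4 * cy 5 6 7 * swap 0 1 : Perm (Fin 8)).cycleType = {3, 2, 3} by decide +kernel]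
    decide
  have h1 : Cov2 M (swap 0 1) (cy 2 4 3 * cy 5 7 6) := h.cov2 ho (fun r => prime_six) (by decide) (by decide)
  have h3 : Cov2 M (cy 2 3 4) (swap 0 1) :=
    h1.symm.mv2 (swap 0 1 * swap 6 7) (by decide) (by decide) (by decide)
  exact good_swap_cy (by simp) (by decide) h3.symm

/-- `(5,3)` -/
theorem rep53 (h : CovG M (swap 3 4 * swap 4 5 * swap 5 6 * swap 6 7 * cy 0 1 2)) : Good M := by
  have ho : orderOf (swap 3 4 * swap 4 5 * swap 5 6 * swap 6 7 * cy 0 1 2 : Perm (Fin 8)) = 15 := by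
    rw [← lcm_cycleType,
      show (swap 3 4 * swap 4 5 * swap 5 6 * swap 6 7 * cy 0 1 2 : Perm (Fin 8)).cycleType = {5, 3} by decide +kernel]
    decide
  have h1 : Cov2 M (cy 0 2 1) ((swap 3 4 * swap 4 5 * swap 5 6 * swap 6 7) ^ 3) :=
    h.cov2 ho (fun r => prime_fifteen) (by decide) (by decide)
  have h2 : Cov2 M (cy 0 2 1) (swap 3 4 * swap 4 5 * swap 5 6 * swap 6 7) := by
    intro a ha
    rcases h1 a ha with h | h
    · exact Or.inl h
    · right
      have h3 := M.pow_mem h 2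
      rw [conj_pow, ← pow_mul] at h3
      rwa [show (swap 3 4 * swap 4 5 * swap 5 6 * swap 6 7 : Perm (Fin 8)) ^ (3 * 2) =
        swap 3 4 * swap 4 5 * swap 5 6 * swap 6 7 by decide] at h3
  have h3 : Cov2 M (cy 4 5 7) (cy 0 2 1) := h2.symm.mv2' (cy 5 6 7) (by decide) (by decide) (by decide)
  exact good_cy_cy (by simp) (by decide) h3.symm

/-- a three-cycle and a double transposition -/
theorem good_cy_dbl (h : Cov2 M (cy 0 1 2) (swap 3 4 * swap 5 6)) : Good M := by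
  have h3 : Cov2 M (cy 5 6 7) (cy 0 1 2) := h.symm.mv2 (cy 5 6 7) (by decide) (by decide) (by decide)
  exact good_cy_cy (by simp) (by decide) h3

/-- `(3,2,2)` -/
theorem rep322 (h : CovG M (cy 0 2 1 * (swap 3 4 * swap 5 6))) : Good M := by
  have ho : orderOf (cy 0 2 1 * (swap 3 4 * swap 5 6) : Perm (Fin 8)) = 6 := by
    rw [← lcm_cycleType,
      show (cy 0 2 1 * (swap 3 4 * swap 5 6) : Perm (Fin 8)).cycleType = {3, 2, 2} by decide +kernel]
    decide
  have h1 : Cov2 M (swap 3 4 * swap 5 6) (cy 0 1 2) := h.cov2 ho (fun r => prime_six) (by decide) (by decide)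
  exact good_cy_dbl h1.symm

/-- `(4,3)` -/
theorem rep34 (h : CovG M (cy 0 1 2 * (swap 3 5 * swap 5 4 * swap 4 6))) : Good M := by
  have ho : orderOf (cy 0 1 2 * (swap 3 5 * swap 5 4 * swap 4 6) : Perm (Fin 8)) = 12 := by
    rw [← lcm_cycleType,
      show (cy 0 1 2 * (swap 3 5 * swap 5 4 * swap 4 6) : Perm (Fin 8)).cycleType = {3, 4} by decide +kernel]
    decide
  have h1 : Cov2 M (swap 3 4 * swap 5 6) (cy 0 1 2) := h.cov2 ho (fun r => prime_twelve) (by decide) (by decide)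
  exact good_cy_dbl h1.symm

/-- `(6)` -/
theorem rep6 (h : CovG M (swap 0 1 * swap 1 2 * swap 2 3 * swap 3 4 * swap 4 5)) : Good M := by
  have ho : orderOf (swap 0 1 * swap 1 2 * swap 2 3 * swap 3 4 * swap 4 5 : Perm (Fin 8)) = 6 := by
    rw [← lcm_cycleType,
      show (swap 0 1 * swap 1 2 * swap 2 3 * swap 3 4 * swap 4 5 : Perm (Fin 8)).cycleType = {6} by decide +kernel]
    decide
  have h1 : Cov2 M (swap 0 3 * swap 1 4 * swap 2 5) (cy 0 2 4 * cy 1 3 5) :=
    h.cov2 ho (fun r => prime_six) (by decide) (by decide)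
  have h2 : Cov2 M (swap 0 3 * swap 2 5) (swap 0 3 * swap 1 4 * swap 2 5) :=
    h1.symm.mv2' (swap 2 5 * swap 6 7) (by decide) (by decide) (by decide)
  have h3 : Cov2 M (cy 1 6 4) (swap 0 3 * swap 2 5) :=
    h2.symm.mv2 (cy 4 6 7) (by decide) (by decide) (by decide)
  have h4 : Cov2 M (cy 2 5 7) (cy 1 6 4) := h3.symm.mv2 (cy 2 5 7) (by decide) (by decide) (by decide)
  exact good_cy_cy (by simp) (by decide) h4

/-- `(6,2)` -/
theorem rep62 (h : CovG M (swap 0 1 * swap 1 2 * swap 2 3 * swap 3 4 * swap 4 5 * swap 6 7)) : Good M := by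
  have ho : orderOf (swap 0 1 * swap 1 2 * swap 2 3 * swap 3 4 * swap 4 5 * swap 6 7 : Perm (Fin 8)) = 6 := by
    rw [← lcm_cycleType,
      show (swap 0 1 * swap 1 2 * swap 2 3 * swap 3 4 * swap 4 5 * swap 6 7 : Perm (Fin 8)).cycleType = {6, 2} by
        decide +kernel]
    decide
  have h1 : Cov2 M (swap 0 3 * swap 1 4 * swap 2 5 * swap 6 7) (cy 0 2 4 * cy 1 3 5) :=
    h.cov2 ho (fun r => prime_six) (by decide) (by decide)
  have h2 : Cov2 M (swap 0 3 * swap 2 5) (swap 0 3 * swap 1 4 * swap 2 5 * swap 6 7) :=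
    h1.symm.mv2' (swap 2 5 * swap 6 7) (by decide) (by decide) (by decide)
  have h3 : Cov2 M (swap 0 3 * swap 2 5) (swap 0 3 * swap 2 5) :=
    h2.symm.mv3 (cy 4 6 7) (by decide) (by decide) (by decide)
  have hall : ∀ a : Perm (Fin 8), sign a = 1 → a * (swap 0 3 * swap 2 5) * a⁻¹ ∈ M := fun a ha => (h3 a ha).elim id id
  have h4 : Cov2 M (cy 2 5 6) (cy 1 4 7) := by
    intro a ha
    left
    have h5 := hall a ha
    have h6 := hall (a * cy 5 6 7) (by rw [map_mul, ha]; decide)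
    have h7 := M.mul_mem h5 h6
    have h8 : a * (swap 0 3 * swap 2 5) * a⁻¹ * (a * cy 5 6 7 * (swap 0 3 * swap 2 5) * (a * cy 5 6 7)⁻¹) =
        a * ((swap 0 3 * swap 2 5) * (cy 5 6 7 * (swap 0 3 * swap 2 5) * (cy 5 6 7)⁻¹)) * a⁻¹ := by group
    rw [h8, show (swap 0 3 * swap 2 5 : Perm (Fin 8)) * (cy 5 6 7 * (swap 0 3 * swap 2 5) * (cy 5 6 7)⁻¹) =
      cy 2 6 5 by decide] at h7
    have h9 := M.inv_mem h7
    have h10 : (a * cy 2 6 5 * a⁻¹)⁻¹ = a * (cy 2 6 5)⁻¹ * a⁻¹ := by group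
    rwa [h10, show (cy (2 : Fin 8) 6 5)⁻¹ = cy 2 5 6 by decide] at h9
  exact good_cy_cy (by simp) (by decide) h4

/-- **`S₈`** -/
theorem good_eight {g : Perm (Fin 8)} (hc : CovG M g) {r₁ r₂ : ℕ} (hr₁ : r₁.Prime) (hr₂ : r₂.Prime)
    (hlt : r₁ < r₂) (hd₁ : r₁ ∣ orderOf g) (hd₂ : r₂ ∣ orderOf g) : Good M := by
  have hs : g.cycleType.sum ≤ 8 := by
    rw [sum_cycleType]
    exact g.support.card_le_univ
  have h2 : ∀ k ∈ g.cycleType, 2 ≤ k := fun k hk => two_le_of_mem_cycleType hk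
  rw [← lcm_cycleType] at hd₁ hd₂
  rcases class_eight h2 hs hr₁ hr₂ hlt hd₁ hd₂ with h | h | h | h | h | h | h | h
  · exact good_of_rep hc (h.trans (by decide +kernel)) fun M' => rep6
  · exact good_of_rep hc (h.trans (by decide +kernel)) fun M' => rep62
  · exact good_of_rep hc (h.trans (by decide +kernel)) fun M' => rep34
  · exact good_of_rep hc (h.trans (by decide +kernel)) fun M' => rep32
  · exact good_of_rep hc (h.trans (by decide +kernel)) fun M' => rep322
  · exact good_of_rep hc (h.trans (by decide +kernel)) fun M' => rep323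
  · exact good_of_rep hc (h.trans (by decide +kernel)) fun M' => rep52
  · exact good_of_rep hc (h.trans (by decide +kernel)) fun M' => rep53

end eight

section five

variable {M : Subgroup (Perm (Fin 5))}

theorem rep32' (h : CovG M (cy 0 1 2 * swap 3 4)) : Good M := by
  have ho : orderOf (cy 0 1 2 * swap 3 4 : Perm (Fin 5)) = 6 := by
    rw [← lcm_cycleType, show (cy 0 1 2 * swap 3 4 : Perm (Fin 5)).cycleType = {3, 2} by decide +kernel]
    decide
  have h1 : Cov2 M (swap 3 4) (cy 0 2 1) := h.cov2 ho (fun r => prime_six) (by decide) (by decide)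
  exact good_swap_cy (by simp) (by decide) h1

/-- **`S₅`** -/
theorem good_five {g : Perm (Fin 5)} (hc : CovG M g) {r₁ r₂ : ℕ} (hr₁ : r₁.Prime) (hr₂ : r₂.Prime)
    (hlt : r₁ < r₂) (hd₁ : r₁ ∣ orderOf g) (hd₂ : r₂ ∣ orderOf g) : Good M := by
  have hs : g.cycleType.sum ≤ 5 := by
    rw [sum_cycleType]
    exact g.support.card_le_univ
  have h2 : ∀ k ∈ g.cycleType, 2 ≤ k := fun k hk => two_le_of_mem_cycleType hk
  rw [← lcm_cycleType] at hd₁ hd₂
  exact good_of_rep hc ((class_five h2 hs hr₁ hr₂ hlt hd₁ hd₂).trans (by decide +kernel)) fun M' => rep32'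

end five

end Cfsg.Agent.H390.RC
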